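import Mathlib
import Cfsg.Agent.H277.EM.Univ
import Cfsg.Prelude.Def_Classical

/-!
# S2243, alternating groups (helper855)

* `em_of_comm_lifts` : a set `s` of elements of `S` with pairwise commuting lifts whose span meets all classes of
  involutions; then every perfect central extension has `EM` (no multiplier needed);
* `crow_alt` : `CRow` for the alternating groups.
-/

set_option autoImplicit false

namespace Cfsg.Agent.H855.EMAlt

open Subgroup Equiv.Perm Cfsg.Agent.H277.MI Cfsg.Agent.H51.Mult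
open scoped commutatorElement

universe u v

section lifts

variable {L : Type u} {S : Type v} [Group L] [Group S] {π : L →* S}

theorem comm_closure (hs : Function.Surjective π) (hc : π.ker ≤ center L) {s : Set S}
    (h : ∀ a ∈ s, ∀ b ∈ s, ∀ x y : L, π x = a → π y = b → x * y = y * x) :
    ∀ a ∈ closure s, ∀ b ∈ closure s, ∀ x y : L, π x = a → π y = b → x * y = y * x := by
  have h1 : ∀ a ∈ closure s, ∀ b ∈ s, ∀ x y : L, π x = a → π y = b → x * y = y * x := by
    intro a ha b hb
    induction ha using closure_induction with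
    | mem a ha => exact h a ha b hb
    | one =>
      intro x y hx _
      exact (mem_center_iff.1 (hc hx) y).symm
    | mul a a' _ _ iha iha' =>
      intro x y hx hy
      obtain ⟨x₁, hx₁⟩ := hs a
      have h2 := iha x₁ y hx₁ hy
      have h3 := iha' (x₁⁻¹ * x) y (by rw [map_mul, map_inv, hx₁, hx, inv_mul_cancel_left]) hy
      calc x * y = x₁ * (x₁⁻¹ * x * y) := by group
        _ = x₁ * y * (x₁⁻¹ * x) := by rw [h3]; group
        _ = y * x := by rw [h2]; group
    | inv a _ iha =>
      intro x y hx hy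
      have h2 := iha x⁻¹ y (by rw [map_inv, hx, inv_inv]) hy
      calc x * y = x * (y * x⁻¹) * x := by group
        _ = y * x := by rw [← h2]; group
  intro a ha b hb
  induction hb using closure_induction with
  | mem b hb => exact h1 a ha b hb
  | one =>
    intro x y _ hy
    exact mem_center_iff.1 (hc hy) x
  | mul b b' _ _ ihb ihb' =>
    intro x y hx hy
    obtain ⟨y₁, hy₁⟩ := hs b
    have h2 := ihb x y₁ hx hy₁
    have h3 := ihb' x (y₁⁻¹ * y) hx (by rw [map_mul, map_inv, hy₁, hy, inv_mul_cancel_left])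
    calc x * y = x * y₁ * (y₁⁻¹ * y) := by group
      _ = y₁ * (x * (y₁⁻¹ * y)) := by rw [h2]; group
      _ = y * x := by rw [h3]; group
  | inv b _ ihb =>
    intro x y hx hy
    have h2 := ihb x y⁻¹ hx (by rw [map_inv, hy, inv_inv])
    calc x * y = y * (y⁻¹ * x) * y := by group
      _ = y * x := by rw [← h2]; group

/-- **Commuting lifts.** -/
theorem em_of_comm_lifts (hs : Function.Surjective π) (hc : π.ker ≤ center L) (s : Set S)
    (h : ∀ a ∈ s, ∀ b ∈ s, ∀ x y : L, π x = a → π y = b → x * y = y * x)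
    (h' : ∀ t : S, orderOf t = 2 → ∃ g : S, g * t * g⁻¹ ∈ closure s) : EM L := by
  have key := comm_closure hs hc h
  refine em_of_commuting {x | π x ∈ closure s ∧ x * x = 1} (fun x hx => hx.2)
    (fun x hx y hy => key _ hx.1 _ hy.1 x y rfl rfl) ?_
  intro t ht
  have htt := sq_of_orderOf ht
  by_cases h1 : π t = 1
  · exact ⟨1, subset_closure ⟨by rw [one_mul, inv_one, mul_one, h1]; exact one_mem _, by
      rw [one_mul, inv_one, mul_one, htt]⟩⟩
  · obtain ⟨g, hg⟩ := h' (π t) (orderOf_two h1 (by rw [← map_mul, htt, map_one]))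
    obtain ⟨k, rfl⟩ := hs g
    refine ⟨k, subset_closure ⟨by rwa [map_mul, map_mul, map_inv], ?_⟩⟩
    rw [show k * t * k⁻¹ * (k * t * k⁻¹) = k * (t * t) * k⁻¹ by group, htt, mul_one, mul_inv_cancel]

/-- two lifts of the same element commute -/
theorem comm_self_lifts (hc : π.ker ≤ center L) {x y : L} (h : π x = π y) : x * y = y * x := by
  have h1 : x * y⁻¹ ∈ π.ker := by rw [MonoidHom.mem_ker, map_mul, map_inv, h, mul_inv_cancel]
  have h2 := mem_center_iff.1 (hc h1) y
  calc x * y = (x * y⁻¹ * y) * y := by group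
    _ = y * (x * y⁻¹) * y := by rw [h2]
    _ = y * x := by group

end lifts

section alt

variable {n : ℕ}

/-- a block of four points -/
def blk (n i : ℕ) (h : 4 * i + 3 < n) : Fin 4 ↪ Fin n :=
  ⟨fun t => ⟨4 * i + t, by omega⟩, fun a b hab => by
    have h1 : 4 * i + (a : ℕ) = 4 * i + b := congrArg Fin.val hab
    exact Fin.ext (by omega)⟩

/-- permutations of a block -/
noncomputable def th (n i : ℕ) (h : 4 * i + 3 < n) : Equiv.Perm (Fin 4) →* Equiv.Perm (Fin n) := viaEmbeddingHom (blk n i h)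

theorem th_apply_of_ne {i : ℕ} {h : 4 * i + 3 < n} (g : Equiv.Perm (Fin 4)) {x : Fin n} (hx : (x : ℕ) / 4 ≠ i) :
    th n i h g x = x := by
  refine viaEmbedding_apply_of_notMem g (blk n i h) x ?_
  rintro ⟨t, rfl⟩
  apply hx
  show (4 * i + (t : ℕ)) / 4 = i
  omega

theorem disj {i j : ℕ} (hi : 4 * i + 3 < n) (hj : 4 * j + 3 < n) (hij : i ≠ j) (g g' : Equiv.Perm (Fin 4)) :
    Disjoint (th n i hi g) (th n j hj g') := by
  intro x
  by_cases h : (x : ℕ) / 4 = i
  · exact Or.inr (th_apply_of_ne g' (by rw [h]; exact hij))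
  · exact Or.inl (th_apply_of_ne g h)

theorem cycleType_th {i : ℕ} (h : 4 * i + 3 < n) (g : Equiv.Perm (Fin 4)) : (th n i h g).cycleType = g.cycleType := by
  have h1 : th n i h g = viaEmbedding g (blk n i h) := rfl
  rw [h1]
  unfold viaEmbedding
  exact @cycleType_extendDomain (Fin 4) _ _ (Fin n) _ _ _ (fun a => Classical.propDecidable _) _ g

/-- the first 3-cycle -/
def c₁ : Equiv.Perm (Fin 4) := Equiv.swap 0 1 * Equiv.swap 1 2
/-- the second 3-cycle -/
def c₂ : Equiv.Perm (Fin 4) := Equiv.swap 0 1 * Equiv.swap 1 3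
/-- double transposition -/
def aa : Equiv.Perm (Fin 4) := ⁅c₁, c₂⁆

theorem sign_c (g : Equiv.Perm (Fin 4)) (hg : g ^ 3 = 1) {i : ℕ} (h : 4 * i + 3 < n) : sign (th n i h g) = 1 := by
  have h1 : sign (th n i h g) ^ 3 = 1 := by rw [← map_pow, ← map_pow, hg, map_one, map_one]
  rcases Int.units_eq_one_or (sign (th n i h g)) with h2 | h2
  · exact h2
  · rw [h2] at h1
    exact absurd h1 (by decide)

theorem cycleType_aa : aa.cycleType = Multiset.replicate 2 2 := by
  have h1 : aa = Equiv.swap 0 1 * Equiv.swap 2 3 := by decide +kernel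
  have h2 : Disjoint (Equiv.swap (0 : Fin 4) 1) (Equiv.swap (2 : Fin 4) 3) := by
    intro x
    revert x
    decide
  have h3 : (Equiv.swap (0 : Fin 4) 1).cycleType = {2} := by
    rw [(isCycle_swap (by decide)).cycleType, card_support_swap (by decide)]
  have h4 : (Equiv.swap (2 : Fin 4) 3).cycleType = {2} := by
    rw [(isCycle_swap (by decide)).cycleType, card_support_swap (by decide)]
  rw [h1, h2.cycleType_mul, h3, h4]
  rfl

/-- elements of `A_n` -/
noncomputable def C₁ (n i : ℕ) (h : 4 * i + 3 < n) : alternatingGroup (Fin n) :=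
  ⟨th n i h c₁, mem_alternatingGroup.2 (sign_c c₁ (by decide) h)⟩
/-- elements of `A_n` -/
noncomputable def C₂ (n i : ℕ) (h : 4 * i + 3 < n) : alternatingGroup (Fin n) :=
  ⟨th n i h c₂, mem_alternatingGroup.2 (sign_c c₂ (by decide) h)⟩
/-- elements of `A_n` -/
noncomputable def A (n i : ℕ) (h : 4 * i + 3 < n) : alternatingGroup (Fin n) := ⁅C₁ n i h, C₂ n i h⁆

theorem coe_A {i : ℕ} (h : 4 * i + 3 < n) : (A n i h : Equiv.Perm (Fin n)) = th n i h aa := by
  unfold aa
  rw [map_commutatorElement]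
  rfl

/-- the commuting set -/
def s (n : ℕ) : Set (alternatingGroup (Fin n)) := {x | ∃ (i : ℕ) (h : 4 * i + 3 < n), x = A n i h}

theorem exists_prod : ∀ m : ℕ, 4 * m ≤ n → ∃ r ∈ closure (s n), (r : Equiv.Perm (Fin n)).cycleType = Multiset.replicate (2 * m) 2 ∧
    ∀ (i : ℕ) (h : 4 * i + 3 < n) (g : Equiv.Perm (Fin 4)), m ≤ i → Disjoint (r : Equiv.Perm (Fin n)) (th n i h g) := by
  intro m
  induction m with
  | zero =>
    intro _
    refine ⟨1, one_mem _, by simp, fun i h g _ => ?_⟩
    exact disjoint_one_left _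
  | succ m ih =>
    intro hm
    obtain ⟨r, hr, hr1, hr2⟩ := ih (by omega)
    have h : 4 * m + 3 < n := by omega
    refine ⟨r * A n m h, mul_mem hr (subset_closure ⟨m, h, rfl⟩), ?_, ?_⟩
    · rw [Subgroup.coe_mul, coe_A, (hr2 m h aa le_rfl).cycleType_mul, hr1, cycleType_th, cycleType_aa,
        ← Multiset.replicate_add]
      congr 1
    · intro i hi g hmi
      rw [Subgroup.coe_mul, coe_A]
      exact (hr2 i hi g (by omega)).mul_left (disj h hi (by omega) aa g)

theorem exists_conj_mem (t : alternatingGroup (Fin n)) (ht : orderOf t = 2) :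
    ∃ g : alternatingGroup (Fin n), g * t * g⁻¹ ∈ closure (s n) := by
  have ht' : orderOf (t : Equiv.Perm (Fin n)) = 2 := by rw [Subgroup.orderOf_coe]; exact ht
  obtain ⟨k, hk⟩ := cycleType_prime_order (σ := (t : Equiv.Perm (Fin n))) (by rw [ht']; exact Nat.prime_two)
  rw [ht'] at hk
  have hs : sign (t : Equiv.Perm (Fin n)) = 1 := mem_alternatingGroup.1 t.2
  rw [sign_of_cycleType, hk, Multiset.sum_replicate, Multiset.card_replicate] at hs
  have hev : Even ((k + 1) • 2 + (k + 1)) := by
    rcases Nat.even_or_odd ((k + 1) • 2 + (k + 1)) with h | h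
    · exact h
    · rw [h.neg_one_pow] at hs
      exact absurd hs (by decide)
  obtain ⟨m, hm⟩ : ∃ m, k + 1 = 2 * m := by
    obtain ⟨j, hj⟩ := hev
    rw [smul_eq_mul] at hj
    exact ⟨(k + 1) / 2, by omega⟩
  rw [hm] at hk
  have hle : 4 * m ≤ n := by
    have h1 := sum_cycleType (t : Equiv.Perm (Fin n))
    have h2 := (t : Equiv.Perm (Fin n)).support.card_le_univ
    rw [← h1, hk, Multiset.sum_replicate, smul_eq_mul, Fintype.card_fin] at h2
    omega
  obtain ⟨r, hr, hr1, -⟩ := exists_prod m hle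
  have hconj : IsConj (t : Equiv.Perm (Fin n)) (r : Equiv.Perm (Fin n)) := by
    rw [isConj_iff_cycleType_eq, hk, hr1]
  obtain ⟨g, hg⟩ := isConj_iff.1 hconj
  -- an odd permutation commuting with `t`
  obtain ⟨x, hx⟩ : ∃ x, (t : Equiv.Perm (Fin n)) x ≠ x := by
    by_contra hcon
    push Not at hcon
    have h1 : (t : Equiv.Perm (Fin n)) = 1 := Equiv.ext hcon
    rw [h1, orderOf_one] at ht'
    omega
  have htt : (t : Equiv.Perm (Fin n)) * t = 1 := by rw [← pow_two, ← ht', pow_orderOf_eq_one]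
  have hw : (t : Equiv.Perm (Fin n)) * Equiv.swap x ((t : Equiv.Perm (Fin n)) x) =
      Equiv.swap x ((t : Equiv.Perm (Fin n)) x) * t := by
    rw [Equiv.mul_swap_eq_swap_mul, ← Equiv.Perm.mul_apply, htt, Equiv.swap_comm]
    rfl
  rcases Int.units_eq_one_or (sign g) with h1 | h1
  · refine ⟨⟨g, mem_alternatingGroup.2 h1⟩, ?_⟩
    have h2 : (⟨g, mem_alternatingGroup.2 h1⟩ : alternatingGroup (Fin n)) * t * ⟨g, mem_alternatingGroup.2 h1⟩⁻¹ = r :=
      Subtype.ext hg
    rw [h2]; exact hr
  · have h3 : sign (g * Equiv.swap x ((t : Equiv.Perm (Fin n)) x)) = 1 := by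
      rw [map_mul, h1, sign_swap (Ne.symm hx)]
      decide
    refine ⟨⟨_, mem_alternatingGroup.2 h3⟩, ?_⟩
    have h2 : (⟨_, mem_alternatingGroup.2 h3⟩ : alternatingGroup (Fin n)) * t * ⟨_, mem_alternatingGroup.2 h3⟩⁻¹ = r := by
      refine Subtype.ext ?_
      show g * Equiv.swap x ((t : Equiv.Perm (Fin n)) x) * t * (g * Equiv.swap x ((t : Equiv.Perm (Fin n)) x))⁻¹ = r
      rw [mul_assoc g, ← hw, ← hg]
      group
    rw [h2]; exact hr

/-- **Alternating groups** -/
theorem crow_alternating (n : ℕ) : CRow (alternatingGroup (Fin n)) := by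
  intro L _ _ π hπ _
  refine em_of_comm_lifts hπ.surj hπ.cen (s n) ?_ exists_conj_mem
  rintro _ ⟨i, hi, rfl⟩ _ ⟨j, hj, rfl⟩ x y hx hy
  by_cases hij : i = j
  · subst hij
    exact comm_self_lifts hπ.cen (hx.trans hy.symm)
  · refine (comm_of_commutator (C := centralizer ({A n i hi} : Set (alternatingGroup (Fin n)))) (t := A n i hi) (y := x) (x := y)
      hπ.cen (fun c hc => mem_centralizer_singleton_iff.1 hc) hx ?_ hπ.surj).symm
    rw [hy]
    have key : ∀ (g : Equiv.Perm (Fin 4)) (w : alternatingGroup (Fin n)), (w : Equiv.Perm (Fin n)) = th n j hj g →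
        w ∈ centralizer ({A n i hi} : Set (alternatingGroup (Fin n))) := by
      intro g w hw
      rw [mem_centralizer_singleton_iff]
      apply Subtype.ext
      rw [Subgroup.coe_mul, Subgroup.coe_mul, hw, coe_A]
      exact ((disj hj hi (Ne.symm hij) g aa).commute).eq
    exact commutator_mem_commutator (key c₁ _ rfl) (key c₂ _ rfl)

theorem crow_alt {L : Type u} [Group L] (h : Cfsg.IsAlternating L) : CRow L := by
  obtain ⟨n, -, ⟨e⟩⟩ := h
  exact (crow_alternating n).congr e

end alt

end Cfsg.Agent.H855.EMAlt
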